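import Mathlib
import Cfsg.Agent.Lib.Fpf4.Basic

/-!
# Irreducible representations compatible with a fixed-point-free automorphism with `σ⁴ = 1`
-/

set_option autoImplicit false
set_option linter.unusedSectionVars false

namespace Cfsg.Agent.Lib.Fpf4

theorem ring_key_comm {R : Type*} [CommRing R] (a a' b b' : R) (ha : a * a' = 1) (hb : b * b' = 1)
    (T1 : (a + a' - b - b') * ((a * a - 1) * (1 + 1)) = 0)
    (T2 : (a * b + a' * b' - b * a' - a * b') * ((a * a - 1) * (1 + 1)) = 0) :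
    (1 + 1) * ((a + 1) ^ 3 * (b + 1) * (a - 1) ^ 4) = 0 := by
  have h1 : a * b * (a + a' - b - b') = (a - b) * (a * b - 1) := by
    linear_combination b * ha - a * hb
  have h2 : a * b * (a * b + a' * b' - b * a' - a * b') = (a ^ 2 - 1) * (b ^ 2 - 1) := by
    linear_combination (b * b' - b ^ 2) * ha + (1 - a ^ 2) * hb
  have K1 : (1 + 1) * (a * a - 1) * ((a - b) * (a * b - 1)) = 0 := by
    rw [← h1]; linear_combination a * b * T1
  have K2 : (1 + 1) * (a * a - 1) * ((a ^ 2 - 1) * (b ^ 2 - 1)) = 0 := by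
    rw [← h2]; linear_combination a * b * T2
  linear_combination ((a - 1) * (a + 1) ^ 2 * (b + 1)) * K1 +
    (-(a - 1) * (a + 1) * ((a - 1) - (b - 1)) + (a + 1) * (b - 1)) * K2

open scoped IsMulCommutative in
theorem ring_key {R : Type*} [Ring R] (s : Set R) (hs : ∀ x ∈ s, ∀ y ∈ s, x * y = y * x)
    {a a' b b' : R} (has : a ∈ s) (has' : a' ∈ s) (hbs : b ∈ s) (hbs' : b' ∈ s)
    (ha : a * a' = 1) (hb : b * b' = 1)
    (T1 : (a + a' - b - b') * ((a * a - 1) * (1 + 1)) = 0)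
    (T2 : (a * b + a' * b' - b * a' - a * b') * ((a * a - 1) * (1 + 1)) = 0) :
    (1 + 1) * ((a + 1) ^ 3 * (b + 1) * (a - 1) ^ 4) = 0 := by
  have := Subring.isMulCommutative_closure hs
  let A : Subring.closure s := ⟨a, Subring.subset_closure has⟩
  let A' : Subring.closure s := ⟨a', Subring.subset_closure has'⟩
  let B : Subring.closure s := ⟨b, Subring.subset_closure hbs⟩
  let B' : Subring.closure s := ⟨b', Subring.subset_closure hbs'⟩
  have := ring_key_comm A A' B B' (Subtype.ext ha) (Subtype.ext hb) (Subtype.ext T1)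
    (Subtype.ext T2)
  exact congrArg Subtype.val this

/-- The data of a representation compatible with the automorphism. -/
structure Rep (X : Type*) (V : Type*) [Group X] [AddCommGroup V] where
  α : X →* X
  h4 : ∀ x, α (α (α (α x))) = x
  hfix : ∀ x, α x = x → x = 1
  ρ : X →* AddMonoid.End V
  inj : Function.Injective ρ
  S : V →+ V
  hS4 : ∀ v, S (S (S (S v))) = v
  hint : ∀ x v, S (ρ x v) = ρ (α x) (S v)
  hW : ∀ u, S (S u) = u → S u = -u
  p : ℕ
  hp : p.Prime
  hp2 : p ≠ 2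
  hpV : ∀ v : V, p • v = 0

namespace Rep

variable {X V : Type*} [Group X] [AddCommGroup V] (r : Rep X V)

theorem rho_mul (x y : X) (v : V) : r.ρ (x * y) v = r.ρ x (r.ρ y v) := by
  rw [map_mul]; rfl

theorem rho_one (v : V) : r.ρ 1 v = v := by
  rw [map_one]; rfl

theorem rho_inv_left (x : X) (v : V) : r.ρ x⁻¹ (r.ρ x v) = v := by
  rw [← rho_mul, inv_mul_cancel, rho_one]

theorem rho_inv_right (x : X) (v : V) : r.ρ x (r.ρ x⁻¹ v) = v := by
  rw [← rho_mul, mul_inv_cancel, rho_one]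

theorem sq_int (x : X) (v : V) : r.S (r.S (r.ρ x v)) = r.ρ (r.α (r.α x)) (r.S (r.S v)) := by
  rw [r.hint, r.hint]

include r in
theorem two_inj (y : V) (h : y + y = 0) : y = 0 := by
  obtain ⟨k, hk⟩ := r.hp.odd_of_ne_two r.hp2
  have h1 := r.hpV y
  rw [hk, add_nsmul, one_nsmul, mul_comm, mul_nsmul, two_nsmul, ← nsmul_add, h, nsmul_zero,
    zero_add] at h1
  exact h1

/-- Elements of odd order have no eigenvalue `-1`. -/
theorem add_one_inj [Finite X] (x : X) (y : V) (h : r.ρ x y + y = 0) : y = 0 := by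
  have hodd : Odd (orderOf x) :=
    Odd.of_dvd_nat (odd_card r.α r.h4 r.hfix) (orderOf_dvd_natCard x)
  have hneg : r.ρ x y = -y := eq_neg_of_add_eq_zero_left h
  have hpow : ∀ n : ℕ, r.ρ (x ^ n) y = (-1 : ℤ) ^ n • y := by
    intro n
    induction n with
    | zero => simp [rho_one]
    | succ n ih =>
      rw [pow_succ', rho_mul, ih, pow_succ']
      simp [hneg]
  have h1 := hpow (orderOf x)
  rw [pow_orderOf_eq_one, rho_one, hodd.neg_one_pow, neg_smul, one_smul] at h1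
  apply r.two_inj
  nth_rw 1 [h1]
  simp

section main

/-- The operator `ρ h + ρ h⁻¹ - ρ (α h) - ρ (α h)⁻¹`. -/
noncomputable def Tt (h : X) : AddMonoid.End V :=
  r.ρ h + r.ρ h⁻¹ - r.ρ (r.α h) - r.ρ (r.α h)⁻¹

theorem Tt_apply (h : X) (v : V) :
    r.Tt h v = r.ρ h v + r.ρ h⁻¹ v - r.ρ (r.α h) v - r.ρ (r.α h)⁻¹ v := rfl

/-- The key relation on the fixed points of `S²`. -/
theorem Tt_kill (g : X) (hg : r.α (r.α g) = g⁻¹) (u : V) (hu : r.S (r.S u) = u) :
    r.Tt g u = 0 := by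
  have hw : r.S (r.S (r.ρ g u + r.ρ g⁻¹ u)) = r.ρ g u + r.ρ g⁻¹ u := by
    rw [map_add, map_add, sq_int, sq_int, hu, hg, map_inv r.α, map_inv r.α, hg, inv_inv, add_comm]
  have h1 := r.hW _ hw
  have hSu := r.hW u hu
  rw [map_add, r.hint, r.hint, hSu, map_neg, map_neg, map_inv r.α] at h1
  rw [Tt_apply]
  have h2 : r.ρ g u + r.ρ g⁻¹ u = r.ρ (r.α g) u + r.ρ (r.α g)⁻¹ u := by
    rw [← neg_inj, ← h1, neg_add]
  rw [h2]
  abel

/-- `Tt h` commutes with the elements commuting with `h` and `α h`. -/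
theorem Tt_comm (h x : X) (h1 : x * h = h * x) (h2 : x * r.α h = r.α h * x) (v : V) :
    r.Tt h (r.ρ x v) = r.ρ x (r.Tt h v) := by
  have h1' : x * h⁻¹ = h⁻¹ * x := by
    rw [eq_inv_mul_iff_mul_eq, ← mul_assoc, ← h1, mul_assoc, mul_inv_cancel, mul_one]
  have h2' : x * (r.α h)⁻¹ = (r.α h)⁻¹ * x := by
    rw [eq_inv_mul_iff_mul_eq, ← mul_assoc, ← h2, mul_assoc, mul_inv_cancel, mul_one]
  simp only [Tt_apply, map_sub, map_add]
  rw [← rho_mul, ← rho_mul, ← rho_mul, ← rho_mul, ← rho_mul, ← rho_mul, ← rho_mul, ← rho_mul,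
    h1, h1', h2, h2']

/-- Elements of `B` and `B` act with the relation below. -/
theorem Tt_sq (g h : X) (hg : r.α (r.α g) = g⁻¹) (hh : r.α (r.α h) = h⁻¹)
    (hc1 : g * h = h * g) (hc2 : g * r.α h = r.α h * g) (v : V) :
    r.Tt h (r.ρ g (r.ρ g (v + v)) - (v + v)) = 0 := by
  set vp := v + r.S (r.S v) with hvp
  set vm := v - r.S (r.S v) with hvm
  have hvp' : r.S (r.S vp) = vp := by
    rw [hvp, map_add, map_add, r.hS4, add_comm]
  have hvm' : r.S (r.S vm) = -vm := by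
    rw [hvm, map_sub, map_sub, r.hS4]; abel
  have hsum : v + v = vp + vm := by rw [hvp, hvm]; abel
  set w := r.ρ g vm - r.ρ g⁻¹ vm with hw
  have hw' : r.S (r.S w) = w := by
    rw [hw, map_sub, map_sub, sq_int, sq_int, hvm', hg, map_inv r.α, map_inv r.α, hg, inv_inv,
      map_neg, map_neg]
    abel
  clear_value vp vm w
  have hk : r.ρ g (r.ρ g (v + v)) - (v + v) = r.ρ g (r.ρ g vp) - vp + r.ρ g w := by
    rw [hsum, map_add, map_add, hw, map_sub, rho_inv_right]
    abel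
  rw [hk, map_add, map_sub, Tt_comm r h g hc1 hc2, Tt_comm r h g hc1 hc2, Tt_comm r h g hc1 hc2,
    r.Tt_kill h hh vp hvp', r.Tt_kill h hh w hw']
  simp

end main

/-- A `CharP` instance for the endomorphism ring (`V` nontrivial of exponent `p`). -/
theorem charP_end [Nontrivial V] : CharP (AddMonoid.End V) r.p := by
  constructor
  intro n
  obtain ⟨v, hv⟩ := exists_ne (0 : V)
  constructor
  · intro hn
    have h1 : n • v = 0 := by
      have := congrArg (fun f : AddMonoid.End V => f v) hn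
      simpa [AddMonoid.End.natCast_apply] using this
    haveI : Fact r.p.Prime := ⟨r.hp⟩
    have h2 : addOrderOf v = r.p := addOrderOf_eq_prime (r.hpV v) hv
    rw [← h2]
    exact addOrderOf_dvd_of_nsmul_eq_zero h1
  · rintro ⟨k, rfl⟩
    ext w
    rw [AddMonoid.End.natCast_apply, mul_comm, mul_nsmul, r.hpV]
    rfl

/-- Unipotent elements of order prime to `p` are trivial. -/
theorem eq_one_of_unipotent [Nontrivial V] (x : X) (q : ℕ) (hq : Nat.Coprime r.p q)
    (hxq : x ^ q = 1) (h4 : (r.ρ x - 1) ^ 4 = 0) : x = 1 := by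
  haveI : Fact r.p.Prime := ⟨r.hp⟩
  haveI := r.charP_end
  have hp4 : 4 ≤ r.p ^ 2 := by
    have := r.hp.two_le
    nlinarith
  have h1 : (r.ρ x - 1 + 1) ^ r.p ^ 2 = (r.ρ x - 1) ^ r.p ^ 2 + 1 ^ r.p ^ 2 :=
    add_pow_char_pow_of_commute r.p 2 (Commute.one_right _)
  have h2 : (r.ρ x - 1) ^ r.p ^ 2 = 0 := by
    obtain ⟨k, hk⟩ := Nat.exists_eq_add_of_le hp4
    rw [hk, pow_add, h4, zero_mul]
  rw [sub_add_cancel, h2, one_pow, zero_add, ← map_pow] at h1
  have h3 : x ^ r.p ^ 2 = 1 := r.inj (by rw [h1, map_one])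
  have h5 := pow_gcd_eq_one.2 ⟨h3, hxq⟩
  have h6 : Nat.gcd (r.p ^ 2) q = 1 := Nat.Coprime.pow_left 2 hq
  rw [h6, pow_one] at h5
  exact h5

section irr

variable [Finite X] [Finite V] [Group.IsSolvable X]

/-- The main theorem on irreducible compatible representations: the group is abelian. -/
theorem comm_of_irreducible
    (hirr : ∀ U : AddSubgroup V, (∀ x, ∀ u ∈ U, r.ρ x u ∈ U) → (∀ u ∈ U, r.S u ∈ U) →
      U = ⊥ ∨ U = ⊤) (x y : X) : x * y = y * x := by
  by_cases hX : Nontrivial X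
  swap
  · rw [not_nontrivial_iff_subsingleton] at hX
    exact Subsingleton.elim _ _
  obtain ⟨D, hDn, hD0, hDα, -, hDc, q, hq, hDq⟩ := exists_minimal_invariant r.α
  obtain ⟨d₀, hd₀D, hd₀1⟩ : ∃ m ∈ D, m ≠ 1 := by
    obtain ⟨m, hm⟩ := (Subgroup.ne_bot_iff_exists_ne_one (H := D)).mp hD0
    exact ⟨m.1, m.2, fun h' => hm (Subtype.ext h')⟩
  have hoddX := odd_card r.α r.h4 r.hfix
  -- V is nontrivial
  haveI hVn : Nontrivial V := by
    by_contra hV
    rw [not_nontrivial_iff_subsingleton] at hV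
    apply hd₀1
    apply r.inj
    rw [map_one]
    ext v
    exact Subsingleton.elim _ _
  -- The fixed points of `D` are zero
  have hCD : ∀ v, (∀ d ∈ D, r.ρ d v = v) → v = 0 := by
    let CD : AddSubgroup V :=
      { carrier := {v | ∀ d ∈ D, r.ρ d v = v}
        zero_mem' := fun d _ => map_zero _
        add_mem' := fun {a b} ha hb d hd => by rw [map_add, ha d hd, hb d hd]
        neg_mem' := fun {a} ha d hd => by rw [map_neg, ha d hd] }
    have hinv1 : ∀ x, ∀ u ∈ CD, r.ρ x u ∈ CD := by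
      intro x u hu d hd
      have h1 : x⁻¹ * d * x ∈ D := by
        have := hDn.conj_mem d hd x⁻¹
        rwa [inv_inv] at this
      have h2 := hu _ h1
      rw [rho_mul, rho_mul] at h2
      have h3 := congrArg (r.ρ x) h2
      rw [rho_inv_right] at h3
      exact h3
    have hinv2 : ∀ u ∈ CD, r.S u ∈ CD := by
      intro u hu d hd
      have h1 : r.α (r.α (r.α d)) ∈ D := hDα _ (hDα _ (hDα _ hd))
      have h2 := congrArg r.S (hu _ h1)
      rw [r.hint, r.h4] at h2
      exact h2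
    rcases hirr CD hinv1 hinv2 with h | h
    · intro v hv
      have : v ∈ CD := hv
      rw [h] at this
      exact (AddSubgroup.mem_bot).mp this
    · exfalso
      apply hd₀1
      apply r.inj
      rw [map_one]
      ext v
      have : v ∈ CD := by rw [h]; exact AddSubgroup.mem_top v
      exact this d₀ hd₀D
  -- `q ≠ p`
  have hqp : q ≠ r.p := by
    intro hqp
    subst hqp
    haveI : Fact r.p.Prime := ⟨r.hp⟩
    letI : MulAction D V :=
      { smul := fun d v => r.ρ d.1 v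
        one_smul := fun v => r.rho_one v
        mul_smul := fun a b v => r.rho_mul a.1 b.1 v }
    have hP : IsPGroup r.p D := by
      intro g
      refine ⟨1, ?_⟩
      apply Subtype.ext
      simpa using hDq g.1 g.2
    have hdvd : r.p ∣ Nat.card V := by
      obtain ⟨v, hv⟩ := exists_ne (0 : V)
      have h2 : addOrderOf v = r.p := addOrderOf_eq_prime (r.hpV v) hv
      rw [← h2]
      exact addOrderOf_dvd_natCard v
    obtain ⟨b, hb, hb0⟩ := hP.exists_fixed_point_of_prime_dvd_card_of_fixed_point V hdvd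
      (a := (0 : V)) (fun d => map_zero (r.ρ d.1))
    exact hb0 (hCD b (fun d hd => hb ⟨d, hd⟩)).symm
  have hcop : Nat.Coprime r.p q := (Nat.coprime_primes r.hp hq).mpr (Ne.symm hqp)
  -- The inverted part of `D` is trivial
  have hB : ∀ g ∈ D, r.α (r.α g) = g⁻¹ → g = 1 := by
    intro g hgD hg
    have hαg := hDα g hgD
    have hαg' := inv_mem hαg
    have hg' := inv_mem hgD
    let s : Set (AddMonoid.End V) := r.ρ '' (D : Set X)
    have hs : ∀ a ∈ s, ∀ b ∈ s, a * b = b * a := by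
      rintro _ ⟨a, ha, rfl⟩ _ ⟨b, hb, rfl⟩
      rw [← map_mul, ← map_mul, hDc a ha b hb]
    have hT1 : (r.ρ g + r.ρ g⁻¹ - r.ρ (r.α g) - r.ρ (r.α g)⁻¹) *
        ((r.ρ g * r.ρ g - 1) * (1 + 1)) = 0 := by
      ext v
      exact r.Tt_sq g g hg hg rfl (hDc _ hgD _ hαg) v
    have hh : r.α (r.α (g * r.α g)) = (g * r.α g)⁻¹ := by
      rw [map_mul, map_mul, hg, map_inv r.α, mul_inv_rev]
      exact hDc _ hg' _ hαg'
    have e1 : (g * r.α g)⁻¹ = g⁻¹ * (r.α g)⁻¹ := by
      rw [mul_inv_rev]; exact hDc _ hαg' _ hg'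
    have e2 : r.α (g * r.α g) = r.α g * g⁻¹ := by rw [map_mul, hg]
    have e3 : (r.α (g * r.α g))⁻¹ = g * (r.α g)⁻¹ := by rw [e2, mul_inv_rev, inv_inv]
    have hT2 : (r.ρ g * r.ρ (r.α g) + r.ρ g⁻¹ * r.ρ (r.α g)⁻¹ - r.ρ (r.α g) * r.ρ g⁻¹ -
        r.ρ g * r.ρ (r.α g)⁻¹) * ((r.ρ g * r.ρ g - 1) * (1 + 1)) = 0 := by
      have h1 : r.ρ g * r.ρ (r.α g) + r.ρ g⁻¹ * r.ρ (r.α g)⁻¹ - r.ρ (r.α g) * r.ρ g⁻¹ -
          r.ρ g * r.ρ (r.α g)⁻¹ = r.Tt (g * r.α g) := by
        unfold Tt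
        rw [e3, e2, e1]
        simp only [map_mul]
      rw [h1]
      ext v
      exact r.Tt_sq g (g * r.α g) hg hh (hDc _ hgD _ (mul_mem hgD hαg))
        (hDc _ hgD _ (hDα _ (mul_mem hgD hαg))) v
    have hkey := ring_key s hs (a := r.ρ g) (a' := r.ρ g⁻¹) (b := r.ρ (r.α g))
      (b' := r.ρ (r.α g)⁻¹) ⟨g, hgD, rfl⟩ ⟨_, hg', rfl⟩ ⟨_, hαg, rfl⟩ ⟨_, hαg', rfl⟩
      (by rw [← map_mul, mul_inv_cancel, map_one]) (by rw [← map_mul, mul_inv_cancel, map_one])
      hT1 hT2
    have hcancel : ∀ (x : X) (A : AddMonoid.End V), (r.ρ x + 1) * A = 0 → A = 0 := by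
      intro x A hA
      ext v
      exact r.add_one_inj x (A v) (DFunLike.congr_fun hA v)
    have h4 : (r.ρ g - 1) ^ 4 = 0 := by
      have h0 : (r.ρ g + 1) ^ 3 * (r.ρ (r.α g) + 1) * (r.ρ g - 1) ^ 4 = 0 := by
        ext v
        exact r.two_inj _ (DFunLike.congr_fun hkey v)
      have h1 : (r.ρ g + 1) * ((r.ρ g + 1) * ((r.ρ g + 1) * ((r.ρ (r.α g) + 1) *
          (r.ρ g - 1) ^ 4))) = 0 := by
        rw [← h0]
        simp only [pow_succ, pow_zero, one_mul, mul_assoc]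
      exact hcancel _ _ (hcancel _ _ (hcancel _ _ (hcancel _ _ h1)))
    exact r.eq_one_of_unipotent g q hcop (hDq g hgD) h4
  -- `S²` acts trivially on `D`
  have hDfix : ∀ d ∈ D, r.α (r.α d) = d := by
    intro d hd
    have h1 : r.α (r.α d) * d⁻¹ ∈ D := mul_mem (hDα _ (hDα _ hd)) (inv_mem hd)
    have h2 := hB _ h1 (by
      rw [map_mul, map_mul, r.h4, map_inv r.α, map_inv r.α, mul_inv_rev, inv_inv])
    exact mul_inv_eq_one.mp h2
  -- the fixed points of `S²` are centralised by `D`, hence trivial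
  have hW0 : ∀ u, r.S (r.S u) = u → u = 0 := by
    intro u hu
    apply hCD
    intro d hd
    have hαd : r.α d = d⁻¹ := apply_eq_inv_of_sq_fixed r.α r.hfix d (hDfix d hd)
    have h1 : r.S (r.S (r.ρ d u)) = r.ρ d u := by
      rw [sq_int, hDfix d hd, hu]
    have h2 := r.hW _ h1
    rw [r.hint, hαd, r.hW u hu, map_neg, neg_inj] at h2
    have h3 : r.ρ d (r.ρ d u - u) + (r.ρ d u - u) = 0 := by
      rw [map_sub]
      nth_rw 1 [← h2]
      rw [rho_inv_right]
      abel
    have h4 := r.add_one_inj d _ h3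
    exact sub_eq_zero.mp h4
  have hSS : ∀ v, r.S (r.S v) = -v := by
    intro v
    have h1 : v + r.S (r.S v) = 0 := by
      apply hW0
      rw [map_add, map_add, r.hS4, add_comm]
    exact (eq_neg_of_add_eq_zero_right h1)
  have hinvol : ∀ x, r.α (r.α x) = x := by
    intro x
    apply r.inj
    ext v
    have h1 := r.sq_int x v
    rw [hSS, hSS, map_neg, neg_inj] at h1
    exact h1.symm
  exact comm_of_invol r.α hinvol r.hfix x y

end irr

end Rep

end Cfsg.Agent.Lib.Fpf4
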