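import Mathlib
import Cfsg.Agent.Lib.Fpf4.Action

/-!
# Solvable groups with a fixed-point-free automorphism `σ` with `σ⁴ = 1`
-/

set_option autoImplicit false
set_option linter.unusedSectionVars false

namespace Cfsg.Agent.Lib.Fpf4

universe u

open scoped IsMulCommutative

section conj

variable {G : Type*} [Group G] (M : Subgroup G) [hn : M.Normal] [IsMulCommutative M]

/-- Conjugation on a normal abelian subgroup as a ring-valued representation. -/
noncomputable def conjEnd : G →* AddMonoid.End (Additive M) where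
  toFun g :=
    { toFun := fun m => Additive.ofMul (⟨g * (Additive.toMul m : M).1 * g⁻¹,
        hn.conj_mem _ (Additive.toMul m : M).2 g⟩ : M)
      map_zero' := by
        apply Additive.toMul.injective
        apply Subtype.ext
        simp
      map_add' := by
        intro a b
        apply Additive.toMul.injective
        apply Subtype.ext
        simp [mul_assoc] }
  map_one' := by
    refine AddMonoidHom.ext fun m => ?_
    apply Additive.toMul.injective
    apply Subtype.ext
    simp
    rfl
  map_mul' := by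
    intro x y
    refine AddMonoidHom.ext fun m => ?_
    apply Additive.toMul.injective
    apply Subtype.ext
    change x * y * _ * (x * y)⁻¹ = x * (y * _ * y⁻¹) * x⁻¹
    group

theorem conjEnd_apply (g : G) (m : Additive M) :
    (Additive.toMul (conjEnd M g m) : M).1 = g * (Additive.toMul m : M).1 * g⁻¹ := rfl

theorem mem_ker_conjEnd (g : G) :
    g ∈ (conjEnd M).ker ↔ ∀ m ∈ M, g * m * g⁻¹ = m := by
  constructor
  · intro hg m hm
    have h1 : conjEnd M g = 1 := hg
    have h2 := congrArg (fun f : AddMonoid.End (Additive M) =>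
      (Additive.toMul (f (Additive.ofMul (⟨m, hm⟩ : M))) : M).1) h1
    exact h2
  · intro h
    change conjEnd M g = 1
    refine AddMonoidHom.ext fun m => ?_
    apply Additive.toMul.injective
    apply Subtype.ext
    exact h _ (Additive.toMul m : M).2

/-- The additive map induced by an invariant automorphism. -/
noncomputable def autEnd (α : G →* G) (hα : ∀ x ∈ M, α x ∈ M) : Additive M →+ Additive M where
  toFun m := Additive.ofMul (⟨α (Additive.toMul m : M).1, hα _ (Additive.toMul m : M).2⟩ : M)
  map_zero' := by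
    apply Additive.toMul.injective
    apply Subtype.ext
    simp
  map_add' := by
    intro a b
    apply Additive.toMul.injective
    apply Subtype.ext
    simp

theorem autEnd_apply (α : G →* G) (hα : ∀ x ∈ M, α x ∈ M) (m : Additive M) :
    (Additive.toMul (autEnd M α hα m) : M).1 = α (Additive.toMul m : M).1 := rfl

end conj

variable {G : Type u} [Group G] [Finite G] [Group.IsSolvable G]

section rep

variable (α : G →* G) (h4 : ∀ x, α (α (α (α x))) = x)
    (hfix : ∀ x, α x = x → x = 1) (M : Subgroup G) [hn : M.Normal] [IsMulCommutative M]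
    (hα : ∀ x ∈ M, α x ∈ M)

include h4 hα in
theorem ker_invariant : ∀ x ∈ (conjEnd M).ker, α x ∈ (conjEnd M).ker := by
  intro x hx
  rw [mem_ker_conjEnd] at hx ⊢
  intro y hy
  have h1 : α (α (α y)) ∈ M := hα _ (hα _ (hα _ hy))
  have h2 := congrArg α (hx _ h1)
  rw [map_mul, map_mul, map_inv, h4] at h2
  exact h2

/-- The induced faithful representation. -/
noncomputable def rhoBar : G ⧸ (conjEnd M).ker →* AddMonoid.End (Additive M) :=
  QuotientGroup.lift (conjEnd M).ker (conjEnd M) (fun _ hx => hx)

theorem rhoBar_mk (g : G) : rhoBar M (g : G ⧸ (conjEnd M).ker) = conjEnd M g := rfl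

theorem rhoBar_inj : Function.Injective (rhoBar M) := by
  intro a b hab
  induction a using QuotientGroup.induction_on with
  | H a =>
    induction b using QuotientGroup.induction_on with
    | H b =>
      rw [rhoBar_mk, rhoBar_mk] at hab
      apply QuotientGroup.eq.mpr
      rw [MonoidHom.mem_ker, map_mul, ← hab, ← map_mul, inv_mul_cancel, map_one]

/-- The representation of the quotient by the centraliser. -/
noncomputable def mkRep (p : ℕ) (hp : p.Prime) (hp2 : p ≠ 2) (hpM : ∀ x ∈ M, x ^ p = 1) :
    Rep (G ⧸ (conjEnd M).ker) (Additive M) where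
  α := quotHom α (conjEnd M).ker (ker_invariant α h4 M hα)
  h4 := quotHom_four α h4 _ _
  hfix := quotHom_fix α h4 hfix _ _
  ρ := rhoBar M
  inj := rhoBar_inj M
  S := autEnd M α hα
  hS4 := by
    intro v
    apply Additive.toMul.injective
    apply Subtype.ext
    simp only [autEnd_apply, h4]
  hint := by
    intro x v
    induction x using QuotientGroup.induction_on with
    | H x =>
      apply Additive.toMul.injective
      apply Subtype.ext
      rw [quotHom_mk, rhoBar_mk, rhoBar_mk, autEnd_apply, conjEnd_apply,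
        conjEnd_apply, autEnd_apply, map_mul, map_mul, map_inv]
  hW := by
    intro u hu
    apply Additive.toMul.injective
    apply Subtype.ext
    have h1 : α (α (Additive.toMul u : M).1) = (Additive.toMul u : M).1 := by
      have := congrArg (fun w : Additive M => (Additive.toMul w : M).1) hu
      exact this
    rw [autEnd_apply, apply_eq_inv_of_sq_fixed α hfix _ h1]
    rfl
  p := p
  hp := hp
  hp2 := hp2
  hpV := by
    intro v
    apply Additive.toMul.injective
    apply Subtype.ext
    exact hpM _ (Additive.toMul v : M).2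

include hn in
theorem rep_irreducible
    (hmin : ∀ K : Subgroup G, K.Normal → (∀ x ∈ K, α x ∈ K) → K ≤ M → K = ⊥ ∨ K = M)
    (U : AddSubgroup (Additive M))
    (hU1 : ∀ (x : G), ∀ u ∈ U, conjEnd M x u ∈ U)
    (hU2 : ∀ u ∈ U, autEnd M α hα u ∈ U) : U = ⊥ ∨ U = ⊤ := by
  let K : Subgroup G :=
    { carrier := {x | ∃ h : x ∈ M, Additive.ofMul (⟨x, h⟩ : M) ∈ U}
      one_mem' := ⟨one_mem _, U.zero_mem⟩
      mul_mem' := by
        rintro a b ⟨ha, ha'⟩ ⟨hb, hb'⟩
        exact ⟨mul_mem ha hb, U.add_mem ha' hb'⟩
      inv_mem' := by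
        rintro a ⟨ha, ha'⟩
        exact ⟨inv_mem ha, U.neg_mem ha'⟩ }
  have hKn : K.Normal := by
    refine ⟨?_⟩
    rintro a ⟨ha, ha'⟩ x
    exact ⟨hn.conj_mem a ha x, hU1 x _ ha'⟩
  have hKα : ∀ x ∈ K, α x ∈ K := by
    rintro a ⟨ha, ha'⟩
    exact ⟨hα a ha, hU2 _ ha'⟩
  have hKM : K ≤ M := fun x hx => hx.1
  rcases hmin K hKn hKα hKM with h | h
  · left
    rw [eq_bot_iff]
    intro u hu
    have h1 : (Additive.toMul u : M).1 ∈ K := ⟨(Additive.toMul u : M).2, hu⟩
    rw [h, Subgroup.mem_bot] at h1
    rw [AddSubgroup.mem_bot]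
    apply Additive.toMul.injective
    exact Subtype.ext h1
  · right
    rw [eq_top_iff]
    intro u _
    have h1 : (Additive.toMul u : M).1 ∈ K := by
      rw [h]; exact (Additive.toMul u : M).2
    exact h1.2

end rep

/-- The derived subgroup centralises a minimal invariant normal subgroup. -/
theorem commutator_centralizes (α : G →* G) (h4 : ∀ x, α (α (α (α x))) = x)
    (hfix : ∀ x, α x = x → x = 1) (M : Subgroup G) (hn : M.Normal) (hM0 : M ≠ ⊥)
    (hα : ∀ x ∈ M, α x ∈ M)
    (hmin : ∀ K : Subgroup G, K.Normal → (∀ x ∈ K, α x ∈ K) → K ≤ M → K = ⊥ ∨ K = M)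
    (hc : ∀ x ∈ M, ∀ y ∈ M, x * y = y * x) (p : ℕ) (hp : p.Prime)
    (hpM : ∀ x ∈ M, x ^ p = 1) (g : G) (hg : g ∈ commutator G) (m : G) (hm : m ∈ M) :
    g * m * g⁻¹ = m := by
  haveI : IsMulCommutative M := ⟨⟨fun a b => Subtype.ext (hc a a.2 b b.2)⟩⟩
  have hodd := odd_card α h4 hfix
  have hp2 : p ≠ 2 := by
    rintro rfl
    obtain ⟨m₀, hm₀, hm₁⟩ : ∃ m ∈ M, m ≠ 1 := by
      obtain ⟨m, hm⟩ := (Subgroup.ne_bot_iff_exists_ne_one (H := M)).mp hM0
      exact ⟨m.1, m.2, fun h' => hm (Subtype.ext h')⟩
    have h1 : orderOf m₀ = 2 := orderOf_eq_prime (hpM _ hm₀) hm₁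
    have h2 := orderOf_dvd_natCard m₀
    rw [h1] at h2
    exact (Nat.not_even_iff_odd.mpr hodd) (even_iff_two_dvd.mpr h2)
  have hcomm := (mkRep α h4 hfix M hα p hp hp2 hpM).comm_of_irreducible (by
    intro U hU1 hU2
    exact rep_irreducible α M hα hmin U (fun x u hu => hU1 (x : G ⧸ (conjEnd M).ker) u hu) hU2)
  have hle : commutator G ≤ (conjEnd M).ker := by
    rw [commutator_def, Subgroup.commutator_le]
    intro a _ b _
    have h1 : ((a * b * a⁻¹ * b⁻¹ : G) : G ⧸ (conjEnd M).ker) = 1 := by
      have h2 := hcomm (a : G ⧸ (conjEnd M).ker) (b : G ⧸ (conjEnd M).ker)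
      rw [QuotientGroup.mk_mul, QuotientGroup.mk_mul, QuotientGroup.mk_mul, QuotientGroup.mk_inv,
        QuotientGroup.mk_inv, h2]
      group
    exact (QuotientGroup.eq_one_iff _).1 h1
  exact (mem_ker_conjEnd M g).1 (hle hg) m hm

/-- The theorem, by induction on the order. -/
theorem nilpotent_commutator_aux (n : ℕ) : ∀ (G : Type u) [Group G] [Finite G]
    [Group.IsSolvable G] (α : G →* G) (_ : ∀ x, α (α (α (α x))) = x)
    (_ : ∀ x, α x = x → x = 1), Nat.card G = n → Group.IsNilpotent (commutator G) := by
  induction n using Nat.strong_induction_on with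
  | _ n ih =>
    intro G _ _ _ α h4 hfix hcard
    by_cases hX : Nontrivial G
    swap
    · rw [not_nontrivial_iff_subsingleton] at hX
      infer_instance
    obtain ⟨M, hn, hM0, hα, hmin, hc, p, hp, hpM⟩ := exists_minimal_invariant α
    have hcen := commutator_centralizes α h4 hfix M hn hM0 hα hmin hc p hp hpM
    have hlt : Nat.card (G ⧸ M) < n := by
      rw [← hcard]
      have h1 := Subgroup.card_eq_card_quotient_mul_card_subgroup M
      have h2 : 1 < Nat.card M := by
        rw [Finite.one_lt_card_iff_nontrivial]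
        exact (Subgroup.nontrivial_iff_ne_bot M).2 hM0
      have h3 : 0 < Nat.card (G ⧸ M) := Nat.card_pos
      nlinarith
    have hq := ih _ hlt (G ⧸ M) (quotHom α M hα) (quotHom_four α h4 M hα)
      (quotHom_fix α h4 hfix M hα) rfl
    have hmem : ∀ x : commutator G, (QuotientGroup.mk' M) x.1 ∈ commutator (G ⧸ M) := by
      intro x
      have h1 : (commutator G).map (QuotientGroup.mk' M) ≤ commutator (G ⧸ M) := by
        rw [commutator_def, Subgroup.map_commutator, commutator_def]
        exact Subgroup.commutator_mono le_top le_top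
      exact h1 ⟨x.1, x.2, rfl⟩
    let f : commutator G →* commutator (G ⧸ M) :=
      ((QuotientGroup.mk' M).comp (commutator G).subtype).codRestrict _ hmem
    haveI := hq
    refine isNilpotent_of_ker_le_center f ?_
    intro x hx
    have h1 : ((QuotientGroup.mk' M) x.1) = 1 := by
      have := congrArg Subtype.val (MonoidHom.mem_ker.mp hx)
      exact this
    have h2 : x.1 ∈ M := (QuotientGroup.eq_one_iff _).1 h1
    rw [Subgroup.mem_center_iff]
    intro y
    apply Subtype.ext
    have h3 := hcen y.1 y.2 x.1 h2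
    exact mul_inv_eq_iff_eq_mul.mp h3

theorem nilpotent_commutator {G : Type u} [Group G] [Finite G] [Group.IsSolvable G]
    (α : G →* G) (h4 : ∀ x, α (α (α (α x))) = x)
    (hfix : ∀ x, α x = x → x = 1) : Group.IsNilpotent (commutator G) :=
  nilpotent_commutator_aux _ G α h4 hfix rfl

end Cfsg.Agent.Lib.Fpf4
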